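import Mathlib
import Cfsg.Agent.Lib.FGS.KPiFusion
import Cfsg.Agent.Lib.Core.Hall
import Cfsg.Agent.Lib.Char.More
import Cfsg.Agent.Lib.Deg.Basic

/-!
# Many classes of `π`-elements: arithmetic, counting, commuting probability (helper14)
-/

set_option autoImplicit false

namespace H14.KP

open Cfsg H77 H3

section Num

variable {σ : Finset ℕ}

theorem piNum_piPart (hσ : ∀ r ∈ σ, r.Prime) (n : ℕ) : PiNum (σ : Set ℕ) (piPart σ n) := by
  intro r hr hd
  obtain ⟨s, hs, hd'⟩ := (Prime.dvd_finsetProd_iff hr.prime _).mp hd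
  rw [(Nat.prime_dvd_prime_iff_eq hr (hσ s hs)).mp (hr.dvd_of_dvd_pow hd')]
  exact hs

theorem piPart_dvd (hσ : ∀ r ∈ σ, r.Prime) (n : ℕ) : piPart σ n ∣ n := by
  refine Finset.prod_dvd_of_isRelPrime ?_ fun r _ => Nat.ordProj_dvd _ _
  intro a ha b hb hab
  exact Nat.coprime_iff_isRelPrime.mp (Nat.coprime_pow_primes _ _ (hσ a ha) (hσ b hb) hab)

theorem piPart_dvd_of_dvd {m n : ℕ} (h : m ∣ n) (hn : n ≠ 0) : piPart σ m ∣ piPart σ n := by
  refine Finset.prod_dvd_prod_of_dvd _ _ fun r _ => pow_dvd_pow _ ?_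
  have hm : m ≠ 0 := fun h0 => hn (by simpa [h0] using h)
  exact (Nat.factorization_le_iff_dvd hm hn).mpr h r

theorem piNum_div (hσ : ∀ r ∈ σ, r.Prime) {n : ℕ} (hn : n ≠ 0) :
    PiNum (σ : Set ℕ)ᶜ (n / piPart σ n) := by
  rw [piNum_compl_iff]
  intro r hr hrσ hd
  have h1 : r ^ n.factorization r ∣ piPart σ n := Finset.dvd_prod_of_mem _ hrσ
  have h2 : r ^ (n.factorization r + 1) ∣ n := by
    conv_rhs => rw [← Nat.mul_div_cancel' (piPart_dvd hσ n)]
    rw [pow_succ]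
    exact mul_dvd_mul h1 hd
  exact Nat.pow_succ_factorization_not_dvd hn hr h2

theorem piPart_eq (hσ : ∀ r ∈ σ, r.Prime) {a b : ℕ} (ha : PiNum (σ : Set ℕ) a)
    (hb : PiNum (σ : Set ℕ)ᶜ b) (hn : a * b ≠ 0) : piPart σ (a * b) = a :=
  PiNum.eq_of_mul_eq_mul (piNum_piPart hσ _) (piNum_div hσ hn) ha hb
    (Nat.mul_div_cancel' (piPart_dvd hσ _))

theorem le_of_piNum {π : Set ℕ} {p d : ℕ} (hmin : ∀ r ∈ π, p ≤ r) (hd : PiNum π d) (h0 : d ≠ 0)
    (h1 : d ≠ 1) : p ≤ d :=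
  (hmin _ (hd _ (Nat.minFac_prime h1) (Nat.minFac_dvd d))).trans
    (Nat.minFac_le (Nat.pos_of_ne_zero h0))

theorem sq_le_of_piNum {π : Set ℕ} {p d : ℕ} (hmin : ∀ r ∈ π, p ≤ r) (hd : PiNum π d) (h0 : d ≠ 0)
    (h1 : d ≠ 1) (h2 : ¬ d.Prime) : p ^ 2 ≤ d :=
  (Nat.pow_le_pow_left (hmin _ (hd _ (Nat.minFac_prime h1) (Nat.minFac_dvd d))) 2).trans
    (Nat.minFac_sq_le_self (Nat.pos_of_ne_zero h0) h2)

/-- A proper divisor of a `π`-number has cofactor at least `p`. -/
theorem mul_le_of_dvd {π : Set ℕ} {p a b : ℕ} (hmin : ∀ r ∈ π, p ≤ r) (hb : PiNum π b)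
    (h0 : b ≠ 0) (hab : a ∣ b) (hne : a ≠ b) : p * a ≤ b := by
  obtain ⟨c, rfl⟩ := hab
  rw [mul_comm a c]
  refine Nat.mul_le_mul_right _ (le_of_piNum hmin (hb.of_dvd (Dvd.intro_left _ rfl)) ?_ ?_)
  · rintro rfl
    simp at h0
  · rintro rfl
    simp at hne

variable {G : Type*} [Group G] [Finite G]

theorem isPiHall_iff_card (hσ : ∀ r ∈ σ, r.Prime) {H : Subgroup G} :
    IsPiHall (σ : Set ℕ) H ↔ Nat.card H = piPart σ (Nat.card G) := by
  rw [isPiHall_iff]
  constructor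
  · rintro ⟨h1, h2⟩
    rw [← H.card_mul_index, piPart_eq hσ h1 h2]
    rw [H.card_mul_index]
    exact Nat.card_pos.ne'
  · intro h
    refine ⟨h ▸ piNum_piPart hσ _, ?_⟩
    have h2 := piNum_div hσ (Nat.card_pos (α := G)).ne'
    rwa [← h, ← H.card_mul_index, Nat.mul_div_cancel_left _ Nat.card_pos] at h2

end Num

section Count

variable {G : Type*} [Group G] [Finite G]

theorem kQ_split (Q R : G → Prop) (hQ : ∀ x y, IsConj x y → Q x → Q y)
    (hR : ∀ x y, IsConj x y → R x → R y) :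
    kQ G (fun x => Q x ∧ R x) + kQ G (fun x => Q x ∧ ¬ R x) = kQ G Q := by
  classical
  haveI := Fintype.ofFinite G
  refine Nat.eq_of_mul_eq_mul_right (Nat.card_pos (α := G)) ?_
  rw [add_mul, kQ_mul_card Q hQ,
    kQ_mul_card _ (fun x y h hx => ⟨hQ x y h hx.1, hR x y h hx.2⟩),
    kQ_mul_card _ (fun x y h hx => ⟨hQ x y h hx.1, fun hy => hx.2 (hR y x h.symm hy)⟩),
    ← Finset.sum_filter_add_sum_filter_not (Finset.univ.filter Q) R, Finset.filter_filter,
    Finset.filter_filter]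
  congr!

theorem kQ_le_card (Q : G → Prop) (hQ : ∀ x y, IsConj x y → Q x → Q y) (S : Subgroup G)
    (h : ∀ x, Q x → ∃ y ∈ S, IsConj x y) : kQ G Q ≤ Nat.card S := by
  refine (kQ_le_kQ_subgroup Q hQ S (fun _ => True) (fun _ _ => trivial) h).trans ?_
  rw [kQ_true]
  exact Nat.card_le_card_of_surjective _ ConjClasses.mk_surjective

/-- The weighted count of classes of `π`-elements over the classes of `q`-elements. -/
theorem count {q : ℕ} (hq : q.Prime) (π : Set ℕ) (R : G → Prop)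
    (hR : ∀ x y, IsConj x y → R x → R y) (c A B : ℕ)
    (hA : ∀ u : G, (∃ k, orderOf u = q ^ k) → R u →
      c * kQ (Subgroup.centralizer ({u} : Set G)) (IsPiElt (π \ {q})) ≤ A)
    (hB : ∀ u : G, (∃ k, orderOf u = q ^ k) → ¬ R u →
      c * kQ (Subgroup.centralizer ({u} : Set G)) (IsPiElt (π \ {q})) ≤ B) :
    c * kQ G (IsPiElt π) ≤ kQ G (fun u => (∃ k, orderOf u = q ^ k) ∧ R u) * A +
      kQ G (fun u => (∃ k, orderOf u = q ^ k) ∧ ¬ R u) * B := by
  classical
  haveI := Fintype.ofFinite G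
  refine Nat.le_of_mul_le_mul_right ?_ (Nat.card_pos (α := G))
  have h := kPi_mul_card_le (G := G) hq π
  have h1 := kQ_mul_card (G := G) (fun u => (∃ k, orderOf u = q ^ k) ∧ R u)
    (fun x y h hx => ⟨pElt_conj x y h hx.1, hR x y h hx.2⟩)
  have h2 := kQ_mul_card (G := G) (fun u => (∃ k, orderOf u = q ^ k) ∧ ¬ R u)
    (fun x y h hx => ⟨pElt_conj x y h hx.1, fun hy => hx.2 (hR y x h.symm hy)⟩)
  rw [mul_assoc, add_mul, mul_right_comm _ A, mul_right_comm _ B, h1, h2]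
  refine (Nat.mul_le_mul_left c h).trans ?_
  rw [← Finset.sum_filter_add_sum_filter_not _ R, Finset.filter_filter, Finset.filter_filter,
    mul_add, Finset.mul_sum, Finset.mul_sum, Finset.sum_mul, Finset.sum_mul]
  refine add_le_add ?_ ?_
  · refine (Finset.sum_le_sum fun u hu => ?_).trans (le_of_eq (by congr!))
    have hu' := (Finset.mem_filter.mp hu).2
    rw [← mul_assoc, mul_comm _ A]
    exact Nat.mul_le_mul_right _ (hA u hu'.1 hu'.2)
  · refine (Finset.sum_le_sum fun u hu => ?_).trans (le_of_eq (by congr!))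
    have hu' := (Finset.mem_filter.mp hu).2
    rw [← mul_assoc, mul_comm _ B]
    exact Nat.mul_le_mul_right _ (hB u hu'.1 hu'.2)

end Count

section Cp

variable {G : Type*} [Group G] [Finite G]

/-- `p² k(G) ≤ |G| + (p² - 1) |G : G'|` if every prime divisor of `|G|` is at least `p`. -/
theorem cp_bound {p : ℕ} (hmin : ∀ r : ℕ, r.Prime → r ∣ Nat.card G → p ≤ r) :
    p ^ 2 * Nat.card (ConjClasses G) + (commutator G).index ≤
      Nat.card G + p ^ 2 * (commutator G).index := by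
  classical
  have e1 : Nat.card (IrrCharacter G) = ∑ _χ : IrrCharacter G, 1 := by
    rw [Nat.card_eq_fintype_card, ← Finset.card_univ, Finset.card_eq_sum_ones]
  have e2 : Nat.card {χ : IrrCharacter G // (χ : G → ℂ) 1 = 1} =
      ∑ χ : IrrCharacter G, if (χ : G → ℂ) 1 = 1 then 1 else 0 := by
    rw [Nat.card_eq_fintype_card, Fintype.card_subtype, Finset.card_filter]
  rw [← H6.card_irr_eq_card_conjClasses, ← H6.card_linear_irr, ← H87.sum_deg_sq (G := G), e1, e2,
    Finset.mul_sum, Finset.mul_sum, ← Finset.sum_add_distrib, ← Finset.sum_add_distrib]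
  refine Finset.sum_le_sum fun χ _ => ?_
  have hc := H87.irr_deg_cast χ.2
  split_ifs with h
  · rw [H87.deg_of_eq (n := 1) (by rw [h]; simp)]
    omega
  · have h1 : charDegree (χ : G → ℂ) ≠ 1 := fun h1 => h (by rw [← hc, h1]; simp)
    have hd := H87.deg_dvd_card χ.2
    have h0 : charDegree (χ : G → ℂ) ≠ 0 := fun h0 =>
      (Nat.card_pos (α := G)).ne' (by simpa [h0] using hd)
    have := le_of_piNum (π := {r | p ≤ r}) (fun r hr => hr)
      (fun r hr hr' => hmin r hr (hr'.trans hd)) h0 h1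
    have := Nat.pow_le_pow_left this 2
    omega

theorem card_commutator_le {p : ℕ} (hmin : ∀ r : ℕ, r.Prime → r ∣ Nat.card G → p ≤ r)
    (h : Nat.card G < p * Nat.card (ConjClasses G)) : Nat.card (commutator G) ≤ p := by
  have h1 := cp_bound hmin
  have h2 := (commutator G).card_mul_index
  set c := Nat.card (commutator G)
  set i := (commutator G).index
  set k := Nat.card (ConjClasses G)
  rw [← h2] at h h1
  by_contra hc
  have hc' : p + 1 ≤ c := by omega
  have hp : 0 < p := Nat.pos_of_ne_zero (by rintro rfl; simp at h)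
  obtain ⟨p, rfl⟩ : ∃ t, p = t + 1 := ⟨p - 1, by omega⟩
  have h3 : (p + 1) * (c * i + 1) ≤ (p + 1) * ((p + 1) * k) := Nat.mul_le_mul_left _ h
  have h4 : p * ((p + 1 + 1) * i) ≤ p * (c * i) :=
    Nat.mul_le_mul_left _ (Nat.mul_le_mul_right _ hc')
  nlinarith

theorem comm_of_many {p : ℕ} (hmin : ∀ r : ℕ, r.Prime → r ∣ Nat.card G → p ≤ r)
    (h : Nat.card G * (p ^ 2 + p - 1) < p ^ 3 * Nat.card (ConjClasses G)) :
    IsMulCommutative G := by
  have h1 := cp_bound hmin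
  have h2 := (commutator G).card_mul_index
  rw [← commutator_eq_bot_iff, ← Subgroup.card_eq_one]
  by_contra hc
  have hc' := le_of_piNum (π := {r | p ≤ r}) (fun r hr => hr)
    (fun r hr hr' => hmin r hr (hr'.trans (commutator G).card_subgroup_dvd_card))
    Nat.card_pos.ne' hc
  set c := Nat.card (commutator G)
  set i := (commutator G).index
  set k := Nat.card (ConjClasses G)
  rw [← h2] at h h1
  have hp : 0 < p := Nat.pos_of_ne_zero (by rintro rfl; simp at h)
  obtain ⟨p, rfl⟩ : ∃ t, p = t + 1 := ⟨p - 1, by omega⟩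
  rw [show (p + 1) ^ 2 + (p + 1) - 1 = (p + 1) ^ 2 + p by omega] at h
  have h3 := Nat.mul_le_mul_left (p + 1) h1
  have h4 : (p ^ 2 + 2 * p) * ((p + 1) * i) ≤ (p ^ 2 + 2 * p) * (c * i) :=
    Nat.mul_le_mul_left _ (Nat.mul_le_mul_right _ hc')
  nlinarith

end Cp

end H14.KP
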