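import Mathlib
import Cfsg.Agent.Lib.KPi14.Basic
import Cfsg.Agent.Lib.Fact.NilpotentHall
import Cfsg.Agent.Lib.Core.CoprimeSylow

/-!
# Many classes of `π`-elements: the local lemmas (helper14)
-/

set_option autoImplicit false

namespace H14.KP

open Cfsg H77 H3 Subgroup
open scoped Pointwise

variable {G : Type*} [Group G] [Finite G]

theorem relIndex_le_fuse {P N : Subgroup G} (hN : N ≤ normalizer (P : Set G)) {x : G}
    (hx : x ∈ P) : (centralizer ({x} : Set G)).relIndex N ≤ fuseCard (P : Set G) x := by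
  letI : MulAction N G := MulAction.compHom G ((MulAut.conj : G →* MulAut G).comp N.subtype)
  have hs : ∀ (n : N) (y : G), n • y = n * y * (n : G)⁻¹ := fun _ _ => rfl
  have h1 : (centralizer ({x} : Set G)).subgroupOf N = MulAction.stabilizer N x := by
    ext n
    rw [mem_subgroupOf, mem_centralizer_singleton_iff, MulAction.mem_stabilizer_iff, hs,
      mul_inv_eq_iff_eq_mul]
  rw [Subgroup.relIndex, h1, MulAction.index_stabilizer, fuseCard]
  refine Set.ncard_le_ncard ?_ (Set.toFinite _)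
  rintro _ ⟨n, rfl⟩
  exact ⟨(mem_normalizer_iff.mp (hN n.2) x).mp hx, isConj_iff.mpr ⟨n, rfl⟩⟩

/-- A subgroup normalizing but not centralizing a Sylow subgroup fuses many elements. -/
theorem kq_bound {q : ℕ} [Fact q.Prime] (Q : Sylow q G) {N : Subgroup G}
    (hN : N ≤ normalizer ((Q : Subgroup G) : Set G)) {m : ℕ} (hm : 0 < m)
    (hmin : ∀ r : ℕ, r.Prime → r ∣ Nat.card N → m ≤ r)
    (hc : ¬ (Q : Subgroup G) ≤ centralizer (N : Set G)) :
    q * (m * kQ G (fun x => ∃ k, orderOf x = q ^ k)) + Nat.card (Q : Subgroup G) ≤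
      m * Nat.card (Q : Subgroup G) + q * Nat.card (Q : Subgroup G) := by
  have hlt : (Q : Subgroup G) ⊓ centralizer (N : Set G) < Q :=
    lt_of_le_of_ne inf_le_left fun h => hc (h.ge.trans inf_le_right)
  have h1 := mul_card_le_of_lt Q.isPGroup' hlt
  have h2 := kP_bound Q hlt.le hm fun x hx hxZ => by
    refine le_trans ?_ (relIndex_le_fuse hN hx)
    refine le_of_piNum (π := {r | m ≤ r}) (fun r hr => hr)
      (fun r hr hr' => hmin r hr (hr'.trans (relIndex_dvd_card _ _)))
      index_ne_zero_of_finite ?_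
    rw [Ne, relIndex_eq_one]
    intro h
    refine hxZ ⟨hx, mem_centralizer_iff.mpr fun n hn => ?_⟩
    exact mem_centralizer_singleton_iff.mp (h hn)
  obtain ⟨m, rfl⟩ : ∃ t, m = t + 1 := ⟨m - 1, by omega⟩
  have h3 := Nat.mul_le_mul_left q h2
  have h4 := Nat.mul_le_mul_left m h1
  nlinarith

/-- Very many classes of `σ`-elements: a Hall `σ`-subgroup normalizes a given Sylow subgroup. -/
theorem exists_hall_le_normalizer {σ : Finset ℕ} (hσ : ∀ r ∈ σ, r.Prime) {p : ℕ} (hp0 : 0 < p)
    (hmin : ∀ r ∈ σ, p ≤ r)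
    (hk : (p + 1) * piPart σ (Nat.card G) < 2 * p * kQ G (IsPiElt (σ : Set ℕ)))
    {q : ℕ} [hq : Fact q.Prime] (hqσ : q ∉ σ) (Q : Sylow q G) :
    ∃ H : Subgroup G, H ≤ normalizer ((Q : Subgroup G) : Set G) ∧ IsPiHall (σ : Set ℕ) H := by
  obtain ⟨N, hN, hc⟩ := exists_complement_of_forall_normalizer_le (G := G) (σ : Set ℕ) (by
    intro r hr hrπ
    have P : Sylow r G := default
    refine ⟨P, normalizer_le_centralizer_of_kP P ?_⟩
    have h1 := kPi_le_kP_mul (G := G) hr.out σ hσ
    have h2 := piPart_eq_mul_erase σ hrπ (Nat.card G)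
    have h3 := piPart_pos (σ.erase r) (fun s hs => hσ s (Finset.mem_of_mem_erase hs)) (Nat.card G)
    rw [← P.card_eq_multiplicity] at h2
    rw [h2] at hk
    set a := Nat.card (P : Subgroup G)
    set b := piPart (σ.erase r) (Nat.card G)
    set k := kQ G (fun x => ∃ k, orderOf x = r ^ k)
    have h4 : (p + 1) * a < 2 * p * k := by
      refine Nat.lt_of_mul_lt_mul_right (a := b) ?_
      calc (p + 1) * a * b = (p + 1) * (a * b) := by ring
        _ < _ := hk
        _ ≤ 2 * p * (k * b) := Nat.mul_le_mul_left _ h1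
        _ = _ := by ring
    have hpr := hmin r hrπ
    refine Nat.lt_of_mul_lt_mul_left (a := p) ?_
    calc p * ((r + 1) * a) = (p * r + p) * a := by ring
      _ ≤ (p * r + r) * a := Nat.mul_le_mul_right _ (by omega)
      _ = r * ((p + 1) * a) := by ring
      _ < r * (2 * p * k) := Nat.mul_lt_mul_of_pos_left h4 hr.out.pos
      _ = _ := by ring)
  obtain ⟨hn, h1, -⟩ := piComplement_of_mem_iff _ hN
  have hQN : (Q : Subgroup G) ≤ N := by
    intro x hx
    rw [hN]
    intro s hs hsπ hd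
    obtain ⟨k, hk⟩ := (IsPGroup.iff_orderOf.mp Q.isPGroup') ⟨x, hx⟩
    rw [orderOf_mk] at hk
    rw [hk] at hd
    rw [(Nat.prime_dvd_prime_iff_eq hs hq.out).mp (hs.dvd_of_dvd_pow hd)] at hsπ
    exact hqσ hsπ
  set M := normalizer ((Q : Subgroup G) : Set G) with hM
  have hsup : N ⊔ M = ⊤ := by rw [sup_comm]; exact Sylow.normalizer_sup_eq_top' Q hQN
  obtain ⟨H, h4, h5, -⟩ := exists_abelian_complement (G := M) (σ : Set ℕ) (N := N.subgroupOf M)
    (fun x => by rw [mem_subgroupOf, hN, orderOf_coe]) (by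
      rw [_root_.commutator_def, commutator_le]
      intro a _ b _
      exact hc (commutator_mem_commutator (mem_top (a : G)) (mem_top (b : G))))
  refine ⟨H.map M.subtype, map_subtype_le H, ?_⟩
  rw [← isPiHallOf_top_iff]
  refine isPiHallOf_trans (isPiHallOf_map_subtype_iff.mpr ⟨h4, h5⟩) le_top ?_
  rw [← hsup, relIndex_sup_right_of_le_normalizer (by rw [normalizer_eq_top]; exact le_top)]
  exact fun r hr hd => h1 r hr (hd.trans (relIndex_dvd_card _ _))

end H14.KP
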