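import Mathlib
import Cfsg.Agent.Lib.KPi14.Local

/-!
# Many classes of `π`-elements: groups with a normal `q`-complement (helper14)
-/

set_option autoImplicit false

namespace H14.KP

open Cfsg H77 H3 H68 Subgroup
open scoped Pointwise

variable {G : Type*} [Group G] [Finite G]

omit [Finite G] in
theorem ncard_orbit (N : Subgroup G) (x : G) :
    {y | ∃ n ∈ N, n * x * n⁻¹ = y}.ncard = (centralizer ({x} : Set G)).relIndex N := by
  letI : MulAction N G := MulAction.compHom G ((MulAut.conj : G →* MulAut G).comp N.subtype)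
  have hs : ∀ (n : N) (y : G), n • y = n * y * (n : G)⁻¹ := fun _ _ => rfl
  have h1 : (centralizer ({x} : Set G)).subgroupOf N = MulAction.stabilizer N x := by
    ext n
    rw [mem_subgroupOf, mem_centralizer_singleton_iff, MulAction.mem_stabilizer_iff, hs,
      mul_inv_eq_iff_eq_mul]
  rw [Subgroup.relIndex, h1, MulAction.index_stabilizer]
  congr 1
  ext y
  exact ⟨fun ⟨n, hn, h⟩ => ⟨⟨n, hn⟩, h⟩, fun ⟨n, h⟩ => ⟨n, n.2, h⟩⟩

/-- A `q`-element with fewer than `q` conjugates under a `q'`-group it normalizes is central. -/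
theorem le_centralizer_of_relIndex_lt {q : ℕ} (hq : q.Prime) {u : G} {k : ℕ}
    (hu : orderOf u = q ^ k) {H : Subgroup G} (hn : zpowers u ≤ normalizer (H : Set G))
    (hH : ¬ q ∣ Nat.card H) (hlt : (centralizer ({u} : Set G)).relIndex H < q) :
    H ≤ centralizer ({u} : Set G) := by
  intro x hx
  have h1 : (centralizer ({x * u * x⁻¹} : Set G)).relIndex (zpowers u) < q := by
    refine lt_of_le_of_lt ?_ hlt
    rw [← ncard_orbit, ← ncard_orbit]
    refine Set.ncard_le_ncard ?_ (Set.toFinite _)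
    rintro _ ⟨a, ha, rfl⟩
    refine ⟨a * x * a⁻¹, H2.conj_mem_of_le_normalizer hn ha hx, ?_⟩
    obtain ⟨j, rfl⟩ := ha
    group
  have h2 : (centralizer ({x * u * x⁻¹} : Set G)).relIndex (zpowers u) = 1 := by
    by_contra hne
    have hd : (centralizer ({x * u * x⁻¹} : Set G)).relIndex (zpowers u) ∣ q ^ k := by
      rw [← hu, ← Nat.card_zpowers]
      exact relIndex_dvd_card _ _
    have := le_of_piNum (π := {q}) (p := q) (fun r hr => hr.ge)
      ((piNum_prime_pow (π := {q}) hq (Set.mem_singleton q) k).of_dvd hd) index_ne_zero_of_finite hne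
    exact absurd h1 (not_lt.mpr this)
  have h3 : Commute (x * u * x⁻¹) u⁻¹ :=
    (show Commute u (x * u * x⁻¹) from mem_centralizer_singleton_iff.mp
      (relIndex_eq_one.mp h2 (mem_zpowers u))).symm.inv_right
  have h4 : (x * u * x⁻¹ * u⁻¹) ^ q ^ k = 1 := by
    rw [h3.mul_pow, conj_pow, inv_pow, ← hu, pow_orderOf_eq_one]
    group
  have h5 : x * u * x⁻¹ * u⁻¹ ∈ H := by
    have := H.mul_mem hx (H2.conj_mem_of_le_normalizer hn (mem_zpowers u) (H.inv_mem hx))
    simpa only [mul_assoc] using this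
  have h6 : orderOf (x * u * x⁻¹ * u⁻¹) = 1 :=
    Nat.eq_one_of_dvd_coprimes (((Nat.Prime.coprime_iff_not_dvd hq).mpr hH).pow_left k)
      (orderOf_dvd_of_pow_eq_one h4) (H1.orderOf_dvd_card_of_mem h5)
  rw [orderOf_eq_one_iff] at h6
  rw [mem_centralizer_singleton_iff]
  calc x * u = x * u * x⁻¹ * u⁻¹ * (u * x) := by group
    _ = u * x := by rw [h6, one_mul]

/-- Wielandt's theorem inside a subgroup. -/
theorem wielandt_in {π : Set ℕ} {H K M : Subgroup G} (hH : Group.IsNilpotent H)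
    (hHall : IsPiHall π H) (hHM : H ≤ M) (hKM : K ≤ M) (hK : IsPiSubgroup π K) :
    ∃ x ∈ M, K ≤ cj x H := by
  have h1 : IsPiHall π (H.subgroupOf M) :=
    (isPiHallOf_iff_subgroupOf hHM).mp (isPiHallOf_of_isPiHall hHall hHM)
  have h2 : Group.IsNilpotent (H.subgroupOf M) :=
    Group.nilpotent_of_mulEquiv (subgroupOfEquivOfLe hHM).symm
  obtain ⟨x, hx⟩ := H22.exists_le_conj_of_nilpotent_hall h2 h1 (K.subgroupOf M)
    (fun r hr hd => hK r hr (by rwa [H1.card_subgroupOf_of_le hKM] at hd))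
  refine ⟨x, x.2, fun y hy => ?_⟩
  have := H1.mem_conj_smul_iff.mp (hx (show (⟨y, hKM hy⟩ : M) ∈ K.subgroupOf M from hy))
  exact mem_cj.mpr this

omit [Finite G] in
theorem isPiHall_cj {π : Set ℕ} {H : Subgroup G} (hH : IsPiHall π H) (g : G) :
    IsPiHall π (cj g H) := isPiHall_conj_smul hH g

/-- In a group with a normal `q`-complement, a `q`-element either centralizes a conjugate of
the nilpotent Hall `σ`-subgroup or loses a factor `p²` of the `σ`-part. -/
theorem fin_bound {σ : Finset ℕ} (hσ : ∀ r ∈ σ, r.Prime) {p q : ℕ} [hq : Fact q.Prime]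
    (hmin : ∀ r ∈ σ, p ≤ r) (hmax : ∀ r ∈ σ, r < q) (hG : HasNormalPComplement q G)
    {H : Subgroup G} (hH : Group.IsNilpotent H) (hHall : IsPiHall (σ : Set ℕ) H)
    {u : G} {k : ℕ} (hu : orderOf u = q ^ k)
    (hne : ∀ g : G, ¬ cj g H ≤ centralizer ({u} : Set G)) :
    p ^ 2 * piPart σ (Nat.card (centralizer ({u} : Set G))) ≤ Nat.card H := by
  obtain ⟨P, K, hKn, hK⟩ := hG
  have hqσ : q ∉ σ := fun h => lt_irrefl _ (hmax q h)
  have hqK : ¬ q ∣ Nat.card K := by
    rw [← hK.index_eq_card]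
    exact P.not_dvd_index
  obtain ⟨j, hj⟩ := P.isPGroup'.exists_card_eq
  have hle : ∀ X : Subgroup G, ¬ q ∣ Nat.card X → X ≤ K := fun X hX =>
    H1.le_of_coprime_index (by
      rw [hK.symm.index_eq_card, hj]
      exact ((Nat.Prime.coprime_iff_not_dvd hq.out).mpr hX).symm.pow_right j)
  have hqH : ¬ q ∣ Nat.card H := fun h => hqσ (hHall.1 q hq.out h)
  set A := zpowers u with hA
  have hAK : A ≤ normalizer (K : Set G) := by rw [normalizer_eq_top]; exact le_top
  have hcA : ∀ X : Subgroup G, ¬ q ∣ Nat.card X → (Nat.card A).Coprime (Nat.card X) :=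
    fun X hX => by
      rw [hA, Nat.card_zpowers, hu]
      exact ((Nat.Prime.coprime_iff_not_dvd hq.out).mpr hX).pow_left k
  have hsA := H2.isSolvable_zpowers u
  obtain ⟨g, -, hg⟩ := H2.exists_invariant_cj hAK (hcA K hqK) (Or.inl hsA) (H := H) (by
    intro a _
    obtain ⟨x, hx, hx'⟩ := wielandt_in hH hHall (hle H hqH) (hle (cj a H) (by rwa [card_cj]))
      (isPiHall_cj hHall a).1
    refine ⟨x⁻¹, K.inv_mem hx, ?_⟩
    rw [eq_of_le_of_card_ge hx' (by rw [card_cj, card_cj]), cj_inv_cj])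
  have hHall' := isPiHall_cj hHall g
  have hne' := hne g
  rw [← card_cj g H] at hqH ⊢
  set H' := cj g H
  set C := centralizer ({u} : Set G) with hC
  have hCA : centralizer (A : Set G) = C := by
    rw [hA, zpowers_eq_closure, centralizer_closure]
  have hdvd : piPart σ (Nat.card C) ∣ Nat.card (C ⊓ H' : Subgroup G) := by
    refine Finset.prod_dvd_of_isRelPrime ?_ fun r hr => ?_
    · intro a ha b hb hab
      exact Nat.coprime_iff_isRelPrime.mp (Nat.coprime_pow_primes _ _ (hσ a ha) (hσ b hb) hab)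
    haveI := Fact.mk (hσ r hr)
    obtain ⟨S, hS⟩ := exists_sylowIn r C
    obtain ⟨R, hR, hAR⟩ := H2.exists_invariant_sylowIn hg (hcA H' hqH) (Or.inl hsA) r
    have hRK : SylowIn r R K := by
      refine sylowIn_of_not_dvd_relIndex hR.isPGroup (hR.le.trans (hle H' hqH)) ?_
      rw [← relIndex_mul_relIndex R H' K hR.le (hle H' hqH)]
      intro hd
      rcases (Nat.Prime.dvd_mul (hσ r hr)).mp hd with h | h
      · exact hR.not_dvd_relIndex h
      · exact hHall'.2 r (hσ r hr) hr (h.trans (relIndex_dvd_index_of_le (hle H' hqH)))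
    have hqS : ¬ q ∣ Nat.card S := by
      rw [hS.card_eq]
      intro hd
      exact (hmax r hr).ne' ((Nat.prime_dvd_prime_iff_eq hq.out (hσ r hr)).mp
        (hq.out.dvd_of_dvd_pow hd))
    obtain ⟨c, hc, hcS⟩ := H2.exists_centralizer_cj_le_of_sylowIn hAK (hcA K hqK) (Or.inl hsA)
      hRK hAR (hle S hqS) hS.isPGroup
      ((le_centralizer_iff.mp (hCA ▸ hS.le)).trans (centralizer_le_normalizer _))
    rw [← hS.card_eq, ← card_cj c S]
    exact card_dvd_of_le (le_inf (cj_le_of_mem (hCA ▸ hc.2) hS.le) (hcS.trans hR.le))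
  have h1 := H1.card_inf_mul_relIndex C H'
  have hπd : PiNum (σ : Set ℕ) (C.relIndex H') :=
    (isPiHall_iff.mp hHall').1.of_dvd (relIndex_dvd_card _ _)
  have h2 : p ^ 2 ≤ C.relIndex H' := by
    refine sq_le_of_piNum hmin hπd index_ne_zero_of_finite
      (fun h => hne' (relIndex_eq_one.mp h)) fun h => hne' ?_
    exact le_centralizer_of_relIndex_lt hq.out hu hg hqH (hmax _ (hπd _ h dvd_rfl))
  rw [← h1, mul_comm]
  exact Nat.mul_le_mul (Nat.le_of_dvd Nat.card_pos hdvd) h2

end H14.KP
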