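import Mathlib
import Cfsg.Agent.Lib.KPi14.Fin
import Cfsg.Agent.Lib.Core.Fitting

/-!
# Many classes of `π`-elements force a nilpotent Hall `π`-subgroup (helper14)
-/

set_option autoImplicit false

namespace H14.KP

open Cfsg H77 H3 H68 Subgroup
open scoped Pointwise

universe u

section Arith

theorem ar1 {p q n a b : ℕ} (hpq : p < q) (hp : 0 < p) (h1 : n < a * p + b) (h2 : q * a ≤ n)
    (h3 : q * (q * (a + b)) + n ≤ q * n + q * n) : False := by
  obtain ⟨p, rfl⟩ : ∃ t, p = t + 1 := ⟨p - 1, by omega⟩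
  obtain ⟨c, rfl⟩ : ∃ t, q = p + 2 + t := ⟨q - p - 2, by omega⟩
  have h4 := Nat.mul_le_mul_left (p + 2 + c) h1
  have h5 := Nat.mul_le_mul_left p h2
  have h6 : 2 * n < (p + 2 + c) * (a + b) := by nlinarith
  have h7 := Nat.mul_le_mul_left (p + 2 + c) h6
  nlinarith

theorem ar2 {p q n a b : ℕ} (hpq : p < q) (hp : 0 < p) (h1 : n < a * p + b) (h2 : q * a ≤ n)
    (h3 : q * (p * (a + b)) + n ≤ p * n + q * n) : False := by
  obtain ⟨p, rfl⟩ : ∃ t, p = t + 1 := ⟨p - 1, by omega⟩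
  obtain ⟨c, rfl⟩ : ∃ t, q = p + 2 + t := ⟨q - p - 2, by omega⟩
  have h4 := Nat.mul_le_mul_left ((p + 2 + c) * (p + 1)) h1
  have h5 := Nat.mul_le_mul_left (p * (p + 1)) h2
  nlinarith [Nat.zero_le (c * p * n)]

theorem ar3 {p q n a b : ℕ} (hpq : p < q) (hp : 0 < p) (h1 : 2 * n < a * (p + 1) + b * 2)
    (h2 : q * a ≤ n) (h3 : 2 * q * (a + b) ≤ (q + 1) * n) : False := by
  obtain ⟨p, rfl⟩ : ∃ t, p = t + 1 := ⟨p - 1, by omega⟩
  obtain ⟨c, rfl⟩ : ∃ t, q = p + 2 + t := ⟨q - p - 2, by omega⟩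
  have h4 := Nat.mul_le_mul_left (p + 2 + c) h1
  have h5 := Nat.mul_le_mul_left p h2
  nlinarith [Nat.zero_le (c * n)]

theorem ar4 {p q n a b : ℕ} (hpq : p < q) (hp : 0 < p) (h1 : p * n < a * p ^ 2 + b)
    (h2 : q * a ≤ n) (h3 : a + b ≤ n) : False := by
  obtain ⟨p, rfl⟩ : ∃ t, p = t + 1 := ⟨p - 1, by omega⟩
  obtain ⟨c, rfl⟩ : ∃ t, q = p + 2 + t := ⟨q - p - 2, by omega⟩
  have h5 := Nat.mul_le_mul_left p h2
  nlinarith [Nat.zero_le (c * p * a)]

end Arith

theorem step {σ : Finset ℕ} (hσ : ∀ r ∈ σ, r.Prime) {p q : ℕ} [hq : Fact q.Prime]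
    (hmin : ∀ r ∈ σ, p ≤ r) (hmax : ∀ r ∈ σ, r < q)
    (ih : ∀ (X : Type u) [Group X] [Finite X],
      piPart σ (Nat.card X) < p * kQ X (IsPiElt (σ : Set ℕ)) →
        ∃ H : Subgroup X, IsPiHall (σ : Set ℕ) H ∧ Group.IsNilpotent H)
    {G : Type u} [Group G] [Finite G] (π : Set ℕ) (hπ : π \ {q} = σ) (Q : Sylow q G)
    (hk : Nat.card (Q : Subgroup G) * piPart σ (Nat.card G) < p * kQ G (IsPiElt π)) :
    ∃ H : Subgroup G, Nat.card H = Nat.card (Q : Subgroup G) * piPart σ (Nat.card G) ∧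
      Group.IsNilpotent H := by
  have hqσ : q ∉ σ := fun h => lt_irrefl _ (hmax q h)
  have hp : 0 < p := Nat.pos_of_ne_zero (by rintro rfl; simp at hk)
  set n := Nat.card (Q : Subgroup G) with hn
  set h := piPart σ (Nat.card G) with hh
  have hh0 : 0 < h := piPart_pos σ hσ _
  set f : G → ℕ := fun u => kQ (centralizer ({u} : Set G)) (IsPiElt (σ : Set ℕ)) with hf
  have hcount : ∀ (R : G → Prop), (∀ x y, IsConj x y → R x → R y) → ∀ c A B : ℕ,
      (∀ u : G, (∃ k, orderOf u = q ^ k) → R u → c * f u ≤ A) →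
      (∀ u : G, (∃ k, orderOf u = q ^ k) → ¬ R u → c * f u ≤ B) →
      c * kQ G (IsPiElt π) ≤ kQ G (fun u => (∃ k, orderOf u = q ^ k) ∧ R u) * A +
        kQ G (fun u => (∃ k, orderOf u = q ^ k) ∧ ¬ R u) * B := by
    intro R hR c A B hA hB
    exact count hq.out π R hR c A B (by rw [hπ]; exact hA) (by rw [hπ]; exact hB)
  have hf1 : ∀ u : G, f u ≤ piPart σ (Nat.card (centralizer ({u} : Set G))) := fun u =>
    kPi_le_piPart σ hσ _
  have hdv : ∀ u : G, piPart σ (Nat.card (centralizer ({u} : Set G))) ∣ h := fun u =>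
    piPart_dvd_of_dvd (card_subgroup_dvd_card _) Nat.card_pos.ne'
  have hf2 : ∀ u : G, f u ≤ h := fun u => (hf1 u).trans (Nat.le_of_dvd hh0 (hdv u))
  have hfull : ∀ u : G, h < p * f u → piPart σ (Nat.card (centralizer ({u} : Set G))) = h := by
    intro u hu
    by_contra hne
    have h1 := mul_le_of_dvd hmin (piNum_piPart hσ _) hh0.ne' (hdv u) hne
    exact absurd (h1.trans_lt hu) (not_lt.mpr (Nat.mul_le_mul_left _ (hf1 u)))
  have hmap : ∀ u : G, h < p * f u → ∀ H0 : Subgroup (centralizer ({u} : Set G)),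
      IsPiHall (σ : Set ℕ) H0 → IsPiHall (σ : Set ℕ) (H0.map (Subgroup.subtype _)) := by
    intro u hu H0 hH0
    rw [isPiHall_iff_card hσ] at hH0 ⊢
    rw [card_map_subtype, hH0, hfull u hu]
  have hgood : ∀ u : G, h < p * f u → ∃ H' : Subgroup G, IsPiHall (σ : Set ℕ) H' ∧
      Group.IsNilpotent H' ∧ H' ≤ centralizer ({u} : Set G) := by
    intro u hu
    obtain ⟨H0, h1, h2⟩ := ih (centralizer ({u} : Set G)) (by rw [hfull u hu]; exact hu)
    exact ⟨_, hmap u hu H0 h1,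
      Group.nilpotent_of_mulEquiv (H0.equivMapOfInjective _ (subtype_injective _)),
      map_subtype_le _⟩
  have hkq : kQ G (fun u => ∃ k, orderOf u = q ^ k) ≤ n := kP_le_card_sylow Q
  obtain ⟨u0, hu0⟩ : ∃ u, h < p * f u := by
    by_contra hne
    push Not at hne
    have h1 := hcount (fun _ => True) (fun _ _ _ _ => trivial) p h 0 (fun u _ _ => hne u)
      (fun u _ hu => absurd trivial hu)
    have h2 := kQ_split (G := G) (fun u => ∃ k, orderOf u = q ^ k) (fun _ => True) pElt_conj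
      (fun _ _ _ _ => trivial)
    have h3 := Nat.mul_le_mul_right h ((Nat.le_add_right _ _).trans (h2.le.trans hkq))
    omega
  obtain ⟨H, hHall, hH, -⟩ := hgood u0 hu0
  have hcH : Nat.card H = h := (isPiHall_iff_card hσ).mp hHall
  have hconj : ∀ H' : Subgroup G, IsPiHall (σ : Set ℕ) H' → ∃ x, H' = cj x H := by
    intro H' hH'
    obtain ⟨x, -, hx⟩ := wielandt_in hH hHall le_top le_top hH'.1
    exact ⟨x, eq_of_le_of_card_ge hx (by rw [card_cj, card_eq_of_isPiHall hHall hH'])⟩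
  obtain ⟨T, hT⟩ := exists_sylowIn q (centralizer (H : Set G))
  have hTn : Nat.card T ∣ n := (sylowIn_top Q).card_dvd hT.isPGroup le_top
  by_cases hTe : Nat.card T = n
  · have hTH : T ≤ normalizer (H : Set G) := hT.le.trans (centralizer_le_normalizer _)
    refine ⟨H ⊔ T, ?_, H1.isNilpotent_sup_of_le_normalizer
      ((le_centralizer_iff.mp hT.le).trans (centralizer_le_normalizer _)) hTH hH
      hT.isPGroup.isNilpotent⟩
    rw [card_sup_of_inf_eq_bot hTH (H2.inf_eq_bot_of_coprime_card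
      (H2.coprime_card_of_isPGroup ?_ hT.isPGroup)), hTe, hcH, mul_comm]
    exact ((Nat.Prime.coprime_iff_not_dvd hq.out).mpr fun hd => hqσ (hHall.1 q hq.out hd)).symm
  exfalso
  have hqT : q * Nat.card T ≤ n := by
    obtain ⟨j, hj⟩ := Q.isPGroup'.exists_card_eq
    refine mul_le_of_dvd (π := {q}) (fun r hr => hr.ge) ?_ Nat.card_pos.ne' hTn hTe
    rw [hn, hj]
    exact piNum_prime_pow (π := {q}) hq.out (Set.mem_singleton q) j
  have hF5 : ∀ (Q1 : Sylow q G) (H' : Subgroup G), IsPiHall (σ : Set ℕ) H' →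
      ¬ (Q1 : Subgroup G) ≤ centralizer (H' : Set G) := by
    intro Q1 H' hH' hle
    obtain ⟨x, rfl⟩ := hconj H' hH'
    rw [← cj_centralizer, le_cj_iff] at hle
    have h1 := hT.card_le (isPGroup_cj _ Q1.isPGroup') hle
    rw [card_cj, Q1.card_eq_multiplicity, ← Q.card_eq_multiplicity] at h1
    exact hTe (le_antisymm (Nat.le_of_dvd Nat.card_pos hTn) h1)
  have hpq : p < q := by
    rcases σ.eq_empty_or_nonempty with rfl | ⟨r, hr⟩
    · refine absurd ?_ (hF5 Q H hHall)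
      rw [card_eq_one.mp (hcH.trans (Finset.prod_empty))]
      exact le_centralizer_iff.mp bot_le
    · exact (hmin r hr).trans_lt (hmax r hr)
  set R : G → Prop := fun u => ∃ y ∈ T, IsConj u y with hR
  have hRc : ∀ x y, IsConj x y → R x → R y := fun x y hxy ⟨z, hz, hxz⟩ =>
    ⟨z, hz, hxy.symm.trans hxz⟩
  have hF4 : ∀ u : G, (∃ k, orderOf u = q ^ k) → ∀ x : G,
      cj x H ≤ centralizer ({u} : Set G) → R u := by
    rintro u ⟨k, hu⟩ x hx
    have h1 : zpowers u ≤ cj x (centralizer (H : Set G)) := by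
      rw [cj_centralizer, zpowers_le, mem_centralizer_iff]
      exact fun y hy => mem_centralizer_singleton_iff.mp (hx hy)
    obtain ⟨g, -, hg⟩ := hT.exists_cj_le (isPGroup_cj x⁻¹
      (IsPGroup.of_card (by rw [Nat.card_zpowers, hu]))) (le_cj_iff.mp h1)
    rw [← cj_mul] at hg
    exact ⟨_, hg (conj_mem_cj.mpr (mem_zpowers u)), isConj_iff.mpr ⟨_, rfl⟩⟩
  have hbad : ∀ u : G, (∃ k, orderOf u = q ^ k) → ¬ R u → p * f u ≤ h := by
    intro u hu hR'
    by_contra hlt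
    obtain ⟨H', h1, -, h2⟩ := hgood u (not_le.mp hlt)
    obtain ⟨x, rfl⟩ := hconj H' h1
    exact hR' (hF4 u hu x h2)
  have hab := kQ_split (G := G) (fun u => ∃ k, orderOf u = q ^ k) R pElt_conj hRc
  have haT := kQ_le_card (fun u : G => (∃ k, orderOf u = q ^ k) ∧ R u)
    (fun x y h hx => ⟨pElt_conj x y h hx.1, hRc x y h hx.2⟩) T (fun x hx => hx.2)
  have hC1 := hcount R hRc p (p * h) h (fun u _ _ => Nat.mul_le_mul_left _ (hf2 u)) hbad
  have hC2 := hcount R hRc (2 * p) ((p + 1) * h) (2 * h)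
  have hC3 := hcount R hRc (p ^ 2) (p ^ 2 * h) h (fun u _ _ => Nat.mul_le_mul_left _ (hf2 u))
  set a := kQ G (fun u => (∃ k, orderOf u = q ^ k) ∧ R u)
  set b := kQ G (fun u => (∃ k, orderOf u = q ^ k) ∧ ¬ R u)
  have hqa : q * a ≤ n := (Nat.mul_le_mul_left _ haT).trans hqT
  have h1 : n < a * p + b := by
    refine Nat.lt_of_mul_lt_mul_right (a := h) (hk.trans_le (hC1.trans_eq ?_))
    ring
  have hcQ : ∀ Q1 : Sylow q G, Nat.card (Q1 : Subgroup G) = n := fun Q1 => by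
    rw [Q1.card_eq_multiplicity, ← Q.card_eq_multiplicity]
  have habel : ∀ Q1 : Sylow q G, (Q1 : Subgroup G) ≤ centralizer ((Q1 : Subgroup G) : Set G) := by
    intro Q1
    by_contra hne
    have h2 := kq_bound Q1 le_normalizer hq.out.pos (fun r hr hd => by
      obtain ⟨j, hj⟩ := Q1.isPGroup'.exists_card_eq
      rw [hj] at hd
      exact ((Nat.prime_dvd_prime_iff_eq hr hq.out).mp (hr.dvd_of_dvd_pow hd)).ge) hne
    rw [hcQ, ← hab] at h2
    exact ar1 hpq hp h1 hqa h2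
  by_cases hA : ∃ u : G, (∃ k, orderOf u = q ^ k) ∧ (p + 1) * h < 2 * p * f u
  · obtain ⟨u, ⟨k, hu⟩, hu'⟩ := hA
    have hu2 : h < p * f u := by nlinarith
    obtain ⟨Q1, hQ1⟩ := (IsPGroup.of_card (p := q) (G := zpowers u)
      (by rw [Nat.card_zpowers, hu])).exists_le_sylow
    have hle : (Q1 : Subgroup G) ≤ centralizer ({u} : Set G) :=
      (habel Q1).trans (centralizer_le (Set.singleton_subset_iff.mpr (hQ1 (mem_zpowers u))))
    obtain ⟨H0, h2, h3⟩ := exists_hall_le_normalizer hσ hp hmin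
      (G := centralizer ({u} : Set G)) (by rw [hfull u hu2]; exact hu') hqσ (Q1.subtype hle)
    have h4 := hmap u hu2 H0 h3
    have h5 : H0.map (Subgroup.subtype _) ≤ normalizer ((Q1 : Subgroup G) : Set G) := by
      rintro _ ⟨x, hx, rfl⟩
      refine H3.mem_normalizer_of_conj_mem fun y hy => ?_
      exact (mem_normalizer_iff.mp (h2 hx) ⟨y, hle hy⟩).mp hy
    have h6 := kq_bound Q1 h5 hp (fun r hr hd => hmin r (h4.1 r hr hd)) (hF5 Q1 _ h4)
    rw [hcQ, ← hab] at h6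
    exact ar2 hpq hp h1 hqa h6
  push Not at hA
  have h2 : 2 * n < a * (p + 1) + b * 2 := by
    have := hC2 (fun u hu _ => hA u hu) (fun u hu hR' => by
      rw [mul_assoc]
      exact Nat.mul_le_mul_left _ (hbad u hu hR'))
    refine Nat.lt_of_mul_lt_mul_right (a := h) ?_
    nlinarith
  have hnc : HasNormalPComplement q G := by
    refine H4.hasNormalPComplement_of_normalizer_le_centralizer Q
      (normalizer_le_centralizer_of_kP Q ?_)
    by_contra hge
    rw [← hab] at hge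
    exact ar3 hpq hp h2 hqa (not_lt.mp hge)
  have h3 : p * n < a * p ^ 2 + b := by
    have := hC3 (fun u ⟨k, hu⟩ hR' => (Nat.mul_le_mul_left _ (hf1 u)).trans (hcH ▸
      fin_bound hσ hmin hmax hnc hH hHall hu fun g hg => hR' (hF4 u ⟨k, hu⟩ g hg)))
    refine Nat.lt_of_mul_lt_mul_right (a := h) ?_
    have h4 := Nat.mul_lt_mul_of_pos_left hk hp
    nlinarith
  exact ar4 hpq hp h3 hqa (hab.le.trans hkq)

/-- More than `|G|_π / p` classes of `π`-elements force a nilpotent Hall `π`-subgroup. -/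
theorem exists_nilpotent_hall (p : ℕ) (π : Finset ℕ) : (∀ r ∈ π, r.Prime) → (∀ r ∈ π, p ≤ r) →
    ∀ (G : Type u) [Group G] [Finite G],
      piPart π (Nat.card G) < p * kQ G (IsPiElt (π : Set ℕ)) →
        ∃ H : Subgroup G, IsPiHall (π : Set ℕ) H ∧ Group.IsNilpotent H := by
  classical
  induction π using Finset.induction_on_max with
  | empty =>
    intro hπ _ G _ _ _
    exact ⟨⊥, (isPiHall_iff_card hπ).mpr (by simp [piPart]), inferInstance⟩
  | insert q σ hmax ih =>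
    intro hπ hmin G _ _ hk
    have hqσ : q ∉ σ := fun h => lt_irrefl _ (hmax q h)
    haveI := Fact.mk (hπ q (Finset.mem_insert_self _ _))
    have Q : Sylow q G := default
    have hσ : ∀ r ∈ σ, r.Prime := fun r hr => hπ r (Finset.mem_insert_of_mem hr)
    have hm : ∀ r ∈ σ, p ≤ r := fun r hr => hmin r (Finset.mem_insert_of_mem hr)
    have he : piPart (insert q σ) (Nat.card G) =
        Nat.card (Q : Subgroup G) * piPart σ (Nat.card G) := by
      rw [piPart_eq_mul_erase _ (Finset.mem_insert_self q σ), Finset.erase_insert hqσ,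
        Q.card_eq_multiplicity]
    obtain ⟨H, h1, h2⟩ := step hσ hm hmax (ih hσ hm) ((insert q σ : Finset ℕ) : Set ℕ)
      (by rw [← Finset.coe_erase, Finset.erase_insert hqσ]) Q (he ▸ hk)
    exact ⟨H, (isPiHall_iff_card hπ).mpr (h1.trans he.symm), h2⟩

/-- The form used by the statements. -/
theorem main {G : Type u} [Group G] [Finite G]
    (π : Set ℕ) (hπ : ∀ q ∈ π, q.Prime) (p : ℕ) (hmin : ∀ q ∈ π, p ≤ q)
    (m : ℕ) (hm : m ∣ Nat.card G) (hmπ : ∀ q : ℕ, q.Prime → q ∣ m → q ∈ π)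
    (hm' : ∀ q ∈ π, ¬ q ∣ Nat.card G / m)
    (k : ℕ) (hk : k = Nat.card {C : ConjClasses G // ∀ q : ℕ, q.Prime →
      (∃ g : G, ConjClasses.mk g = C ∧ q ∣ orderOf g) → q ∈ π})
    (hmany : m < p * k) :
    ∃ H : Subgroup G, Nat.card H = m ∧ Group.IsNilpotent H ∧
      k ≤ Nat.card (ConjClasses H) := by
  classical
  set σ : Finset ℕ := (Nat.card G).primeFactors.filter (· ∈ π) with hσ
  have hσp : ∀ r ∈ σ, r.Prime := fun r hr => hπ r (Finset.mem_filter.mp hr).2
  have hmem : ∀ r : ℕ, r.Prime → r ∣ Nat.card G → r ∈ π → r ∈ (σ : Set ℕ) := fun r hr hd h => by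
    rw [hσ, Finset.mem_coe, Finset.mem_filter, Nat.mem_primeFactors]
    exact ⟨⟨hr, hd, Nat.card_pos.ne'⟩, h⟩
  have h2 : k = kQ G (IsPiElt (σ : Set ℕ)) := by
    rw [hk]
    refine Nat.card_congr (Equiv.subtypeEquivRight fun C => ⟨fun h x hx r hr hd => ?_,
      fun h q hq ⟨g, hg, hd⟩ => ?_⟩)
    · exact hmem r hr (hd.trans (orderOf_dvd_natCard x))
        (h r hr ⟨x, ConjClasses.mem_carrier_iff_mk_eq.mp hx, hd⟩)
    · exact (Finset.mem_filter.mp (h g (ConjClasses.mem_carrier_iff_mk_eq.mpr hg) q hq hd)).2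
  have h3 : piPart σ (Nat.card G) = m := by
    rw [← Nat.mul_div_cancel' hm]
    refine piPart_eq hσp (fun r hr hd => hmem r hr (hd.trans hm) (hmπ r hr hd))
      (piNum_compl_iff.mpr fun r _ hr => hm' r (Finset.mem_filter.mp hr).2) ?_
    rw [Nat.mul_div_cancel' hm]
    exact Nat.card_pos.ne'
  obtain ⟨H, hHall, hH⟩ := exists_nilpotent_hall p σ hσp
    (fun r hr => hmin r (Finset.mem_filter.mp hr).2) G (by rw [h3, ← h2]; exact hmany)
  refine ⟨H, ((isPiHall_iff_card hσp).mp hHall).trans h3, hH, ?_⟩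
  rw [h2, ← kQ_true]
  refine kQ_le_kQ_subgroup _ IsPiElt.conj H _ (fun _ _ => trivial) fun x hx => ?_
  obtain ⟨g, -, hg⟩ := wielandt_in hH hHall le_top (K := zpowers x) le_top
    (fun r hr hd => hx r hr (by rwa [Nat.card_zpowers] at hd))
  exact ⟨_, mem_cj.mp (hg (mem_zpowers x)), isConj_iff.mpr ⟨g⁻¹, by rw [inv_inv]⟩⟩

end H14.KP
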